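import Cfsg.Agent.H13.Co3.Def
import Cfsg.Agent.H613.KKL.CI
import Cfsg.Agent.H40.KKL.PGLTwo
import Cfsg.Agent.H40.KKL.XOne

/-!
# S1920, case B, `z` classical (helper392): an involution `y ≠ z` of `N0` centralising the root `SL₂`

* `pgl_le_four` : homomorphisms from an elementary abelian-by-central 2-group into `PGL₂(F)`;
* `exists_y` : `CB`, `CI z J` ⟹ an involution `y ≠ z` of `N0` centralising `J`, and `n y n⁻¹ = z y` for some `n ∈ N0`.
-/

set_option autoImplicit false

open Subgroup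

namespace Cfsg.Agent.H392.Co3

open Cfsg.Agent.H40.KKL (PGL2 Sc sc_mul mk_one_iff mk_eq ci_cz)
open Cfsg.Agent.H613.KKL (CI)
open Cfsg.Agent.H13.Co3 (CB)

section PGL

variable {F : Type*} [Field F]

/-- `±`-commuting lifts -/
theorem exists_mu {A B : GL (Fin 2) F} (hA2 : (A : PGL2 F) * A = 1) (h : (A : PGL2 F) * B = B * A) :
    (A : Matrix (Fin 2) (Fin 2) F) * B = (B : Matrix (Fin 2) (Fin 2) F) * A ∨
    (A : Matrix (Fin 2) (Fin 2) F) * B = -((B : Matrix (Fin 2) (Fin 2) F) * A) := by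
  obtain ⟨c, hc, e⟩ := mk_eq (A := A * B) (B := B * A) h
  rw [Units.val_mul, Units.val_mul] at e
  have h1 : Sc ((A : Matrix (Fin 2) (Fin 2) F) * (A : Matrix (Fin 2) (Fin 2) F)) := by
    rw [← Units.val_mul, ← mk_one_iff]
    exact hA2
  obtain ⟨d, hd⟩ := (Cfsg.Agent.H40.KKL.sc_iff _).1 h1
  -- `A (A B) = c² (B A) A`
  have h2 : (A : Matrix (Fin 2) (Fin 2) F) * (A * B) = (c * c) • ((B : Matrix (Fin 2) (Fin 2) F) * (A * A)) := by
    rw [e, mul_smul_comm, ← mul_assoc, e, smul_mul_assoc, smul_smul, mul_assoc]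
  have h3 : (A : Matrix (Fin 2) (Fin 2) F) * (A * B) = (B : Matrix (Fin 2) (Fin 2) F) * (A * A) := by
    rw [← mul_assoc, hd]
    exact (Matrix.scalar_commute d (fun r' => mul_comm _ _) _).eq
  have hne : (B : Matrix (Fin 2) (Fin 2) F) * (A * A) ≠ 0 := by
    rw [← Units.val_mul, ← Units.val_mul]
    exact Units.ne_zero _
  have h4 : c * c = 1 := by
    rw [h3] at h2
    have h5 : (c * c - 1) • ((B : Matrix (Fin 2) (Fin 2) F) * (A * A)) = 0 := by
      rw [sub_smul, one_smul, ← h2, sub_self]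
    rcases smul_eq_zero.1 h5 with h6 | h6
    · linear_combination h6
    · exact absurd h6 hne
  rcases mul_self_eq_one_iff.1 h4 with rfl | rfl
  · left; rw [e, one_smul]
  · right; rw [e, neg_one_smul]

/-- the relation "the lifts commute" -/
def Cm (a b : PGL2 F) : Prop := ∃ A B : GL (Fin 2) F, (A : PGL2 F) = a ∧ (B : PGL2 F) = b ∧
  (A : Matrix (Fin 2) (Fin 2) F) * B = (B : Matrix (Fin 2) (Fin 2) F) * A

theorem Cm.any {a b : PGL2 F} (h : Cm a b) {A B : GL (Fin 2) F} (hA : (A : PGL2 F) = a) (hB : (B : PGL2 F) = b) :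
    (A : Matrix (Fin 2) (Fin 2) F) * B = (B : Matrix (Fin 2) (Fin 2) F) * A := by
  obtain ⟨A', B', hA', hB', e⟩ := h
  obtain ⟨c, hc, e1⟩ := mk_eq (A := A) (B := A') (hA.trans hA'.symm)
  obtain ⟨d, hd, e2⟩ := mk_eq (A := B) (B := B') (hB.trans hB'.symm)
  rw [e1, e2, smul_mul_smul_comm, smul_mul_smul_comm, e, mul_comm c d]

/-- commuting lifts of involutions: equal involutions -/
theorem Cm.eq (h2 : (2 : F) ≠ 0) {a b : PGL2 F} (h : Cm a b) (ha : a ≠ 1) (hb : b ≠ 1) (ha2 : a * a = 1)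
    (hb2 : b * b = 1) : a * b = 1 := by
  obtain ⟨A, B, rfl, rfl, e⟩ := h
  rw [← QuotientGroup.mk_mul, mk_one_iff, Units.val_mul]
  refine sc_mul h2 ?_ ?_ ?_ ?_ e
  · rwa [← mk_one_iff]
  · rwa [← mk_one_iff]
  · rw [← Units.val_mul, ← mk_one_iff]; exact ha2
  · rw [← Units.val_mul, ← mk_one_iff]; exact hb2

/-- **four commuting involutions**: among `a, b, c` commuting of order ≤ 2 in `PGL₂(F)` with `a, b ≠ 1`, `a ≠ b`, `c` is one of
`1, a, b, a b` -/
theorem four (h2 : (2 : F) ≠ 0) {a b c : PGL2 F} (ha2 : a * a = 1) (hb2 : b * b = 1) (hc2 : c * c = 1)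
    (hab : a * b = b * a) (hac : a * c = c * a) (hbc : b * c = c * b) (ha : a ≠ 1) (hb : b ≠ 1) (hne : a ≠ b) :
    c = 1 ∨ c = a ∨ c = b ∨ c = a * b := by
  by_cases hc : c = 1
  · exact Or.inl hc
  have key : ∀ {u v : PGL2 F}, u * u = 1 → v * v = 1 → u ≠ 1 → v ≠ 1 → Cm u v → u = v := by
    intro u v hu hv hu1 hv1 h
    have h3 := h.eq h2 hu1 hv1 hu hv
    calc u = u * (v * v) := by rw [hv, mul_one]
      _ = (u * v) * v := by rw [mul_assoc]
      _ = v := by rw [h3, one_mul]
  obtain ⟨A, rfl⟩ := QuotientGroup.mk_surjective a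
  obtain ⟨B, rfl⟩ := QuotientGroup.mk_surjective b
  obtain ⟨C, rfl⟩ := QuotientGroup.mk_surjective c
  rcases exists_mu ha2 hac with h | h
  · exact Or.inr (Or.inl (key hc2 ha2 hc ha ⟨C, A, rfl, rfl, h.symm⟩))
  rcases exists_mu hb2 hbc with h' | h'
  · exact Or.inr (Or.inr (Or.inl (key hc2 hb2 hc hb ⟨C, B, rfl, rfl, h'.symm⟩)))
  · refine Or.inr (Or.inr (Or.inr (key hc2 ?_ hc ?_ ⟨C, A * B, rfl, rfl, ?_⟩)))
    · calc (A : PGL2 F) * B * (A * B) = A * (B * A) * B := by simp only [mul_assoc]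
        _ = (A * A) * (B * B) := by rw [← hab]; simp only [mul_assoc]
        _ = 1 := by rw [ha2, hb2, one_mul]
    · intro h3
      apply hne
      calc (A : PGL2 F) = A * (B * B) := by rw [hb2, mul_one]
        _ = (A * B) * B := by rw [mul_assoc]
        _ = B := by rw [h3, one_mul]
    · rw [Units.val_mul]
      have h4 : (C : Matrix (Fin 2) (Fin 2) F) * A = -((A : Matrix (Fin 2) (Fin 2) F) * C) := by rw [h, neg_neg]
      have h5 : (C : Matrix (Fin 2) (Fin 2) F) * B = -((B : Matrix (Fin 2) (Fin 2) F) * C) := by rw [h', neg_neg]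
      rw [← mul_assoc, h4, neg_mul, mul_assoc, h5, mul_neg, neg_neg, mul_assoc]

/-- the image of an elementary abelian 2-group in `PGL₂(F)` has order at most 4 -/
theorem card_le_four (h2 : (2 : F) ≠ 0) {E : Subgroup (PGL2 F)} [Finite ↥E] (hsq : ∀ e ∈ E, e * e = 1) :
    Nat.card ↥E ≤ 4 := by
  classical
  have hcomm : ∀ e ∈ E, ∀ f ∈ E, e * f = f * e := by
    intro e he f hf
    have h1 := hsq _ (mul_mem he hf)
    calc e * f = (f * f) * (e * f) * (e * e) := by rw [hsq f hf, hsq e he, one_mul, mul_one]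
      _ = f * (f * (e * (f * e)) * e) := by simp only [mul_assoc]
      _ = f * (f * e * (f * e)) * e := by simp only [mul_assoc]
      _ = f * e := by rw [hsq _ (mul_mem hf he), mul_one]
  by_cases h : ∃ a ∈ E, ∃ b ∈ E, a ≠ 1 ∧ b ≠ 1 ∧ a ≠ b
  · obtain ⟨a, ha, b, hb, ha1, hb1, hab⟩ := h
    have hsub : (E : Set (PGL2 F)) ⊆ (({1, a, b, a * b} : Finset (PGL2 F)) : Set (PGL2 F)) := by
      intro c hc
      have := four h2 (hsq a ha) (hsq b hb) (hsq c hc) (hcomm a ha b hb) (hcomm a ha c hc) (hcomm b hb c hc) ha1 hb1 hab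
      simp only [Finset.coe_insert, Finset.coe_singleton, Set.mem_insert_iff, Set.mem_singleton_iff]
      exact this
    calc Nat.card ↥E = Set.ncard (E : Set (PGL2 F)) := rfl
      _ ≤ Set.ncard (({1, a, b, a * b} : Finset (PGL2 F)) : Set (PGL2 F)) :=
        Set.ncard_le_ncard hsub (Finset.finite_toSet _)
      _ = ({1, a, b, a * b} : Finset (PGL2 F)).card := Set.ncard_coe_finset _
      _ ≤ 4 := Finset.card_le_four
  · push Not at h
    by_cases h1 : ∃ a ∈ E, a ≠ 1
    · obtain ⟨a, ha, ha1⟩ := h1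
      have hsub : (E : Set (PGL2 F)) ⊆ (({1, a} : Finset (PGL2 F)) : Set (PGL2 F)) := by
        intro c hc
        simp only [Finset.coe_insert, Finset.coe_singleton, Set.mem_insert_iff, Set.mem_singleton_iff]
        by_cases hc1 : c = 1
        · exact Or.inl hc1
        · exact Or.inr (h a ha c hc ha1 hc1).symm
      calc Nat.card ↥E = Set.ncard (E : Set (PGL2 F)) := rfl
        _ ≤ Set.ncard (({1, a} : Finset (PGL2 F)) : Set (PGL2 F)) :=
          Set.ncard_le_ncard hsub (Finset.finite_toSet _)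
        _ = ({1, a} : Finset (PGL2 F)).card := Set.ncard_coe_finset _
        _ ≤ 2 := Finset.card_le_two
        _ ≤ 4 := by norm_num
    · push Not at h1
      have : E = ⊥ := by
        rw [Subgroup.eq_bot_iff_forall]
        exact h1
      rw [this, Subgroup.card_bot]
      norm_num

end PGL

section Grp

variable {G : Type*} [Group G] {P N0 : Subgroup G} {z s : G} {ψ : ↥(normalizer (P : Set G)) →* Equiv.Perm (Fin 6)}

theorem z_comm (C : CB P N0 z s ψ) {n : G} (hn : n ∈ N0) : n * z = z * n := by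
  have h := C.s_cen n hn
  rw [← C.s_sq, ← mul_assoc, h, mul_assoc, h, mul_assoc]

/-- elements of `D` squaring into `⟨z⟩`, commuting up to `z`, with only one involution: at most 8 elements -/
theorem card_le_eight {D : Subgroup G} (hz2 : z * z = 1) (hzD : ∀ n ∈ D, n * z = z * n)
    (hsq : ∀ n ∈ D, n * n = 1 ∨ n * n = z) (hcm : ∀ n ∈ D, ∀ m ∈ D, n * m = m * n ∨ n * m = z * (m * n))
    (hinv : ∀ n ∈ D, n * n = 1 → n = 1 ∨ n = z) : Nat.card ↥D ≤ 8 := by
  classical
  by_cases hex : ∃ a ∈ D, a * a = z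
  · obtain ⟨a, ha, haz⟩ := hex
    -- elements commuting with `a`
    have hC : ∀ c ∈ D, a * c = c * a → ∃ i j : Fin 2, c = a ^ (i : ℕ) * z ^ (j : ℕ) := by
      intro c hc hac
      rcases hsq c hc with h | h
      · rcases hinv c hc h with rfl | rfl
        · exact ⟨0, 0, by simp⟩
        · exact ⟨0, 1, by simp⟩
      · have h1 : (a * c) * (a * c) = 1 := by
          calc (a * c) * (a * c) = a * (c * a) * c := by group
            _ = (a * a) * (c * c) := by rw [← hac]; group
            _ = 1 := by rw [haz, h, hz2]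
        have h3 : a⁻¹ = a * z := by
          rw [inv_eq_iff_mul_eq_one, ← mul_assoc, haz, hz2]
        rcases hinv _ (mul_mem ha hc) h1 with h4 | h4
        · refine ⟨1, 1, ?_⟩
          rw [Fin.val_one, pow_one, pow_one, ← h3]
          exact eq_inv_of_mul_eq_one_right h4
        · refine ⟨1, 0, ?_⟩
          rw [Fin.val_one, Fin.val_zero, pow_one, pow_zero, mul_one]
          have : c = a⁻¹ * z := by rw [← h4]; group
          rw [this, h3, mul_assoc, hz2, mul_one]
    have key : ∃ b ∈ D, ∀ c ∈ D, ∃ i j k : Fin 2, c = a ^ (i : ℕ) * z ^ (j : ℕ) * b ^ (k : ℕ) := by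
      by_cases hb : ∃ b ∈ D, a * b ≠ b * a
      · obtain ⟨b, hb, hab⟩ := hb
        refine ⟨b, hb, fun c hc => ?_⟩
        by_cases hac : a * c = c * a
        · obtain ⟨i, j, e⟩ := hC c hc hac
          exact ⟨i, j, 0, by rw [e]; simp⟩
        · have h1 := (hcm a ha b hb).resolve_left hab
          have h3 := (hcm a ha c hc).resolve_left hac
          have hbz := hzD b hb
          have h4 : a * (c * b⁻¹) = (c * b⁻¹) * a := by
            have h5 : a * b⁻¹ = z * (b⁻¹ * a) := by
              have h6 : b⁻¹ * (a * b) * b⁻¹ = b⁻¹ * (z * (b * a)) * b⁻¹ := by rw [h1]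
              have h7 : b⁻¹ * (a * b) * b⁻¹ = b⁻¹ * a := by group
              have h8 : b⁻¹ * (z * (b * a)) * b⁻¹ = z * (a * b⁻¹) := by
                have h9 : b⁻¹ * z = z * b⁻¹ := by
                  rw [inv_mul_eq_iff_eq_mul, ← mul_assoc, hbz, mul_inv_cancel_right]
                calc _ = (b⁻¹ * z) * (b * a) * b⁻¹ := by group
                  _ = _ := by rw [h9]; group
              rw [h7, h8] at h6
              rw [h6, ← mul_assoc, hz2, one_mul]
            have hcz := hzD c hc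
            calc a * (c * b⁻¹) = (a * c) * b⁻¹ := by group
              _ = z * (c * (a * b⁻¹)) := by rw [h3]; group
              _ = z * (c * z) * (b⁻¹ * a) := by rw [h5]; group
              _ = (z * z) * (c * b⁻¹ * a) := by rw [hcz]; group
              _ = _ := by rw [hz2, one_mul]
          obtain ⟨i, j, e⟩ := hC _ (mul_mem hc (inv_mem hb)) h4
          refine ⟨i, j, 1, ?_⟩
          rw [Fin.val_one, pow_one, ← e]
          group
      · push Not at hb
        refine ⟨1, one_mem _, fun c hc => ?_⟩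
        obtain ⟨i, j, e⟩ := hC c hc (hb c hc)
        exact ⟨i, j, 0, by rw [e]; simp⟩
    obtain ⟨b, hb, hall⟩ := key
    have hsub : (D : Set G) ⊆ ((Finset.univ.image fun p : Fin 2 × Fin 2 × Fin 2 =>
        a ^ (p.1 : ℕ) * z ^ (p.2.1 : ℕ) * b ^ (p.2.2 : ℕ) : Finset G) : Set G) := by
      intro c hc
      obtain ⟨i, j, k, e⟩ := hall c hc
      rw [Finset.mem_coe, Finset.mem_image]
      exact ⟨(i, j, k), Finset.mem_univ _, e.symm⟩
    calc Nat.card ↥D = Set.ncard (D : Set G) := rfl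
      _ ≤ _ := Set.ncard_le_ncard hsub (Finset.finite_toSet _)
      _ = _ := Set.ncard_coe_finset _
      _ ≤ _ := Finset.card_image_le
      _ = 8 := by rw [Finset.card_univ]; rfl
  · push Not at hex
    have hsub : (D : Set G) ⊆ (({1, z} : Finset G) : Set G) := by
      intro c hc
      simp only [Finset.coe_insert, Finset.coe_singleton, Set.mem_insert_iff, Set.mem_singleton_iff]
      exact hinv c hc ((hsq c hc).resolve_right (hex c hc))
    calc Nat.card ↥D = Set.ncard (D : Set G) := rfl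
      _ ≤ Set.ncard (({1, z} : Finset G) : Set G) := Set.ncard_le_ncard hsub (Finset.finite_toSet _)
      _ = ({1, z} : Finset G).card := Set.ncard_coe_finset _
      _ ≤ 2 := Finset.card_le_two
      _ ≤ 8 := by norm_num

/-- **an involution `y ≠ z` of `N0` centralising `J`** -/
theorem exists_y (C : CB P N0 z s ψ) {J : Subgroup G} (hJ : CI z J) :
    ∃ y ∈ N0, y * y = 1 ∧ y ≠ 1 ∧ y ≠ z ∧ (∀ g ∈ J, y * g = g * y) ∧ ∃ n ∈ N0, n * y * n⁻¹ = z * y := by
  classical
  have hfin : Finite ↥N0 := Nat.finite_of_card_ne_zero (by rw [C.card]; norm_num)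
  have hle : N0 ≤ Subgroup.centralizer ({z} : Set G) := by
    intro n hn
    rw [Subgroup.mem_centralizer_iff]
    intro x hx
    rw [Set.mem_singleton_iff] at hx
    rw [hx]
    exact (z_comm C hn).symm
  obtain ⟨F, i1, i2, f, h2, hf⟩ := hJ.act
  let φ : ↥N0 →* PGL2 F := f.comp (Subgroup.inclusion hle)
  have hφ : ∀ n : ↥N0, φ n = 1 ↔ ∀ g ∈ J, (n : G) * g = g * n := fun n => hf (Subgroup.inclusion hle n)
  have hφz : ∀ n : ↥N0, (n : G) = z → φ n = 1 := by
    intro n hn
    rw [hφ, hn]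
    exact ci_cz hJ
  have hE : ∀ e ∈ φ.range, e * e = 1 := by
    rintro _ ⟨n, rfl⟩
    rw [← map_mul]
    rcases C.sq n n.2 with h | h
    · have : n * n = 1 := Subtype.ext h
      rw [this, map_one]
    · exact hφz _ h
  have hcard := card_le_four h2 hE
  have h64 : Nat.card ↥φ.ker * Nat.card ↥φ.range = 64 := by
    rw [← C.card, ← Subgroup.index_ker, Subgroup.card_mul_index]
  have hker : 16 ≤ Nat.card ↥φ.ker := by
    by_contra hlt
    push Not at hlt
    have h1 : Nat.card ↥φ.ker * Nat.card ↥φ.range ≤ 15 * 4 :=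
      Nat.mul_le_mul (by omega) hcard
    omega
  by_contra hno
  push Not at hno
  let D : Subgroup G := φ.ker.map N0.subtype
  have hD : ∀ n ∈ D, n ∈ N0 ∧ ∀ g ∈ J, n * g = g * n := by
    rintro _ ⟨n, hn, rfl⟩
    exact ⟨n.2, (hφ n).1 hn⟩
  have hDcard : Nat.card ↥D = Nat.card ↥φ.ker :=
    Nat.card_congr (φ.ker.equivMapOfInjective _ N0.subtype_injective).toEquiv.symm
  have h8 : Nat.card ↥D ≤ 8 := by
    refine card_le_eight C.z_sq (fun n hn => z_comm C (hD n hn).1) (fun n hn => C.sq n (hD n hn).1)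
      (fun n hn m hm => C.comm n (hD n hn).1 m (hD m hm).1) fun n hn hnn => ?_
    by_contra hc
    push Not at hc
    obtain ⟨hnN, hnJ⟩ := hD n hn
    -- `n` is not central in `N0`
    have hnc : ∃ m ∈ N0, n * m ≠ m * n := by
      by_contra hall
      push Not at hall
      have h5 := C.cen n hnN hall
      obtain ⟨k, hk⟩ := Subgroup.mem_zpowers_iff.1 h5
      have hs4 : s ^ (4 : ℤ) = 1 := by
        have : s ^ (4 : ℤ) = (s * s) * (s * s) := by
          rw [show (4 : ℤ) = 1 + 1 + 1 + 1 by norm_num, zpow_add, zpow_add, zpow_add, zpow_one]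
          simp only [mul_assoc]
        rw [this, C.s_sq, C.z_sq]
      have h6 : n = s ^ (k % 4) := by
        rw [← hk]
        conv_lhs => rw [← Int.emod_add_mul_ediv k 4]
        rw [zpow_add, zpow_mul, hs4, one_zpow, mul_one]
      have h7 : k % 4 = 0 ∨ k % 4 = 1 ∨ k % 4 = 2 ∨ k % 4 = 3 := by omega
      rcases h7 with h7 | h7 | h7 | h7 <;> rw [h7] at h6
      · exact hc.1 (by rw [h6, zpow_zero])
      · rw [zpow_one] at h6
        rw [h6, C.s_sq] at hnn
        exact C.z_ne hnn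
      · apply hc.2
        rw [h6, ← C.s_sq, show (2 : ℤ) = 1 + 1 by norm_num, zpow_add, zpow_one]
      · have h8 : n * n = s ^ (4 : ℤ) * (s * s) := by
          rw [h6, ← zpow_add, show s * s = s ^ (2 : ℤ) by
            rw [show (2 : ℤ) = 1 + 1 by norm_num, zpow_add, zpow_one], ← zpow_add]
          norm_num
        rw [h8, hs4, C.s_sq, one_mul] at hnn
        exact C.z_ne hnn
    obtain ⟨m, hm, hne⟩ := hnc
    have h6 := (C.comm m hm n hnN).resolve_left (fun h => hne h.symm)
    exact hno n hnN hnn hc.1 hc.2 hnJ m hm (by rw [h6]; group)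
  omega

end Grp

end Cfsg.Agent.H392.Co3
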