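import Cfsg.Agent.H392.Co3.Sl2
import Cfsg.Agent.H392.Co3.Grp
import Cfsg.Agent.H971.RV.FrOKE8
import Cfsg.Agent.H557.InvE8
import Cfsg.Agent.H542.Co3.X0E8

/-!
# S1920, case B, `z` a classical involution (helper392)

* `row_gen` : a simply laced type: an involution `y ≠ 1` and `g` with `g ^ 2 = z`,
  `2 m(y) + 4 = 2 m(g) + m(z)`, `m` the dimension of the `(-1)`-eigenspace on the Lie algebra;
* `e8_112` : no configuration in `E₈(q)` with `z` of type `A₁E₇`;
* `e8_112_of_dim` : the same with `z` given by `m(z) = 112`.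
-/

set_option autoImplicit false
set_option linter.unusedSectionVars false

namespace Cfsg.Agent.H392.Co3

open CoxeterSystem Cfsg Cfsg.Lie Cfsg.Lie.ChevalleyDatum
open Cfsg.Agent.ChevalleyStructure Cfsg.Agent.ChevalleyStructure.Elts Cfsg.Agent.ChevalleyStructure.CoxeterGeom
  Cfsg.Agent.ChevalleyStructure.CoxeterGeomTypes Cfsg.Agent.ChevalleyStructure.NPerm
open Cfsg.Agent.ChevalleyStructure.LieAbs Cfsg.Agent.ChevalleyStructure.Ring Cfsg.Agent.ChevalleyStructure.JacMain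
  Cfsg.Agent.ChevalleyStructure.LieAut Cfsg.Agent.ChevalleyStructure.JacAll Cfsg.Agent.ChevalleyStructure.Columns
  Cfsg.Agent.ChevalleyStructure.Additive
open Cfsg.Agent.Tits.Roots Cfsg.Agent.Nodes.Reps Cfsg.Agent.Nodes.BNOf Cfsg.Agent.Nodes.RGDChev
open Cfsg.Agent.OddHalf.LongSL Cfsg.Agent.OddHalf.LongSL.Chev
open Cfsg.Agent.KFacts.RgdChevCoord (TT XX)
open Cfsg.Agent.GenExc Cfsg.Agent.GenExc.Chev
open Cfsg.Agent.H167.EX Cfsg.Agent.H512.LinFour.IdealF Cfsg.Agent.H971.RV Cfsg.Agent.H553.KKL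
open Cfsg.Agent.H392.KKL (nu ci_E8 dim_E8 finrank_of_isConj finrank_zS exists_J)
open Cfsg.Agent.H542.Co3.X0E8 (mE8_two mE8_four_112)
open Cfsg.Agent.H613.KKL (CI)
open Cfsg.Agent.H13.Co3 (CB)
open Module Matrix

section Gen

variable {D : ChevalleyDatum} {l : ℕ} {M : CoxeterMatrix (Fin l)} (hp : IsType D l M) {K : Type} [Field K]
  (S : SLac D) (hT : Two D)

include S hT in
/-- **the identity** -/
theorem row_gen (h2 : (2 : K) ≠ 0) {i₀ : Fin l} (T : SlTab D i₀)
    (hci : CI (zS hp K [i₀]) (phi hp K i₀).range) {P N0 : Subgroup ↥(D.group K)} {z s : ↥(D.group K)}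
    {ψ : ↥(Subgroup.normalizer (P : Set ↥(D.group K))) →* Equiv.Perm (Fin 6)} (C : CB P N0 z s ψ)
    (hz : IsConj (zS hp K [i₀]) z) :
    ∃ y g : ↥(D.group K), y * y = 1 ∧ y ≠ 1 ∧ g * g = zS hp K [i₀] ∧
      2 * finrank K ↥(LinearMap.ker (rho D K y + 1)) + 4 =
        2 * finrank K ↥(LinearMap.ker (rho D K g + 1)) + finrank K ↥(LinearMap.ker (rho D K (zS hp K [i₀]) + 1)) := by
  obtain ⟨J, hJ0, hJ1, hJ2⟩ := exists_J hci
  obtain ⟨y, -, hyy, hy1, -, hyJ, n, hn, hny⟩ := exists_y C (hJ1 z hz)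
  have hnz := z_comm C hn
  obtain ⟨x, hx⟩ := isConj_iff.1 hz
  set z1 := zS hp K [i₀] with hz1
  have hyJ' : ∀ g ∈ (phi hp K i₀).range, (x⁻¹ * y * x) * g = g * (x⁻¹ * y * x) := by
    intro g hg
    have h1 : x * g * x⁻¹ ∈ J z := by
      rw [← hx, hJ2, hJ0]
      exact hg
    have h3 := hyJ _ h1
    calc (x⁻¹ * y * x) * g = x⁻¹ * (y * (x * g * x⁻¹)) * x := by group
      _ = x⁻¹ * ((x * g * x⁻¹) * y) * x := by rw [h3]
      _ = _ := by group
  have hyy' : (x⁻¹ * y * x) * (x⁻¹ * y * x) = 1 := by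
    calc (x⁻¹ * y * x) * (x⁻¹ * y * x) = x⁻¹ * (y * y) * x := by group
      _ = 1 := by rw [hyy]; group
  have hy1' : x⁻¹ * y * x ≠ 1 := by
    intro h
    apply hy1
    calc y = x * (x⁻¹ * y * x) * x⁻¹ := by group
      _ = 1 := by rw [h]; group
  have hzz : z1 * z1 = 1 := zS_sq hp K _
  have hnz' : (x⁻¹ * n * x) * z1 = z1 * (x⁻¹ * n * x) := by
    have e : z1 = x⁻¹ * z * x := by rw [← hx]; group
    rw [e]
    calc (x⁻¹ * n * x) * (x⁻¹ * z * x) = x⁻¹ * (n * z) * x := by group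
      _ = x⁻¹ * (z * n) * x := by rw [hnz]
      _ = _ := by group
  have hny' : (x⁻¹ * n * x) * (x⁻¹ * y * x) = z1 * (x⁻¹ * y * x) * (x⁻¹ * n * x) := by
    have e : z1 = x⁻¹ * z * x := by rw [← hx]; group
    rw [e]
    calc (x⁻¹ * n * x) * (x⁻¹ * y * x) = x⁻¹ * (n * y * n⁻¹) * n * x := by group
      _ = x⁻¹ * (z * y) * n * x := by rw [hny]
      _ = _ := by group
  set y' := x⁻¹ * y * x with hy'
  set n' := x⁻¹ * n * x with hn'
  have F := cfg_of hp S hT h2 T hyy' hyJ'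
  have hinj : Function.Injective (rho D K n') := by
    rw [injective_iff_map_eq_zero]
    intro v hv
    exact rho_inj n' hv
  have h1 := F.finrank_eq h2 (by rw [← map_mul, hzz, map_one]) hinj (by rw [← map_mul, hnz', map_mul])
    (by rw [← map_mul, hny', map_mul, map_mul])
  have hjj : phi hp K i₀ (nu K) * phi hp K i₀ (nu K) = z1 := by
    rw [← map_mul, nu_sq, hz1, zS_cons, zS_nil, mul_one]
  refine ⟨y', phi hp K i₀ (nu K) * y', hyy', hy1', ?_, ?_⟩
  · have h3 := hyJ' _ ⟨nu K, rfl⟩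
    calc phi hp K i₀ (nu K) * y' * (phi hp K i₀ (nu K) * y')
        = phi hp K i₀ (nu K) * (y' * phi hp K i₀ (nu K)) * y' := by group
      _ = phi hp K i₀ (nu K) * (phi hp K i₀ (nu K) * y') * y' := by rw [h3]
      _ = (phi hp K i₀ (nu K) * phi hp K i₀ (nu K)) * (y' * y') := by group
      _ = z1 := by rw [hjj, hyy', mul_one]
  · rw [map_mul (rho D K) (phi hp K i₀ (nu K)) y']
    exact h1

end Gen

theorem slacE8 : SLac chevE8 := ⟨lacE8, by decide +kernel, by decide +kernel⟩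

theorem twoE8 : Two chevE8 := by
  unfold Two
  decide +kernel

theorem tabE8 : SlTab chevE8 (7 : Fin 8) where
  self := ⟨⟨7, by decide⟩, by decide +kernel⟩
  cneg := by decide +kernel
  aneg := by decide +kernel
  rw1 := by decide +kernel
  rw2 := by decide +kernel

/-! ### `E₈(q)` -/

section E8

variable {F : Type} [Field F] [Fintype F]

theorem odd_card (h2 : (2 : F) ≠ 0) : Odd (Fintype.card F) := by
  by_contra h
  rw [Nat.not_odd_iff_even] at h
  apply h2
  obtain ⟨p, hpp, hpc⟩ := Cfsg.Agent.H392.KKL.exists_prime F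
  obtain ⟨n, hn, hc⟩ := FiniteField.card F p
  rw [hc, Nat.even_pow] at h
  have h3 : p = 2 := (hpp.even_iff).1 h.1
  subst h3
  have := CharP.cast_eq_zero F 2
  exact_mod_cast this

theorem dim_two (h2 : (2 : F) ≠ 0) {z : ↥(chevE8.group F)} (hzz : z * z = 1) (hz : z ≠ 1) :
    finrank F ↥(LinearMap.ker (rho chevE8 F z + 1)) = 112 ∨ finrank F ↥(LinearMap.ker (rho chevE8 F z + 1)) = 128 :=
  mE8_two h2 hzz hz

theorem conj_of_dim (h2 : (2 : F) ≠ 0) {z : ↥(chevE8.group F)} (hzz : z * z = 1)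
    (hm : finrank F ↥(LinearMap.ker (rho chevE8 F z + 1)) = 112) : IsConj (zS isType_E8 F [7]) z := by
  obtain ⟨cs, -⟩ : ∃ cs, cs = (CoxeterMatrix.E₈).toCoxeterSystem := ⟨_, rfl⟩
  have h7 : finrank F ↥(LinearMap.ker (rho chevE8 F (zS isType_E8 F [7]) + 1)) = 112 := dim_E8 h2 (IsConj.refl _)
  have h0 : finrank F ↥(LinearMap.ker (rho chevE8 F (zS isType_E8 F [0, 7]) + 1)) = 128 :=
    finrank_zS isType_E8 cs h2 [0, 7] (by decide +kernel)
  have hne : ∀ {t : ↥(chevE8.group F)} {m : ℕ}, finrank F ↥(LinearMap.ker (rho chevE8 F t + 1)) = m → m ≠ 0 →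
      t * t = 1 → orderOf t = 2 := by
    intro t m ht hm0 htt
    refine orderOf_eq_prime (by rw [pow_two, htt]) ?_
    rintro rfl
    apply hm0
    rw [← ht, map_one]
    have : LinearMap.ker ((1 : Module.End F (chevE8.Idx → F)) + 1) = ⊥ := by
      rw [LinearMap.ker_eq_bot']
      intro v hv
      have h3 : (2 : F) • v = 0 := by
        rw [two_smul]
        exact hv
      exact (smul_eq_zero.1 h3).resolve_left h2
    rw [this, finrank_bot]
  obtain ⟨s, t, -, -, -, hst, -⟩ := Cfsg.Agent.H557.InvE8.main (K := F) (odd_card h2)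
  have key : ∀ {a b : ↥(chevE8.group F)}, IsConj a b → finrank F ↥(LinearMap.ker (rho chevE8 F a + 1)) =
      finrank F ↥(LinearMap.ker (rho chevE8 F b + 1)) := fun h => (finrank_of_isConj (rho chevE8 F) h).symm
  rcases hst z (hne hm (by norm_num) hzz) with h1 | h1 <;>
    rcases hst _ (hne h7 (by norm_num) (zS_sq _ _ _)) with h3 | h3
  · exact h3.trans h1.symm
  · exfalso
    rcases hst _ (hne h0 (by norm_num) (zS_sq _ _ _)) with h4 | h4
    · have := (key h4).trans (key h1).symm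
      omega
    · have := (key h4).trans (key h3).symm
      omega
  · exfalso
    rcases hst _ (hne h0 (by norm_num) (zS_sq _ _ _)) with h4 | h4
    · have := (key h4).trans (key h3).symm
      omega
    · have := (key h4).trans (key h1).symm
      omega
  · exact h3.trans h1.symm

/-- **no configuration in `E₈(q)` with `z` of type `A₁E₇`** -/
theorem e8_112 (h2 : (2 : F) ≠ 0) {P N0 : Subgroup ↥(chevE8.group F)} {z s : ↥(chevE8.group F)}
    {ψ : ↥(Subgroup.normalizer (P : Set ↥(chevE8.group F))) →* Equiv.Perm (Fin 6)} (C : CB P N0 z s ψ)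
    (hz : IsConj (zS isType_E8 F [7]) z) : False := by
  obtain ⟨y, g, hyy, hy1, hgg, h1⟩ := row_gen isType_E8 slacE8 twoE8 h2 tabE8 (ci_E8 h2) C hz
  have h7 : finrank F ↥(LinearMap.ker (rho chevE8 F (zS isType_E8 F [7]) + 1)) = 112 := dim_E8 h2 (IsConj.refl _)
  have h3 := dim_two h2 hyy hy1
  have h4 : finrank F ↥(LinearMap.ker (rho chevE8 F g + 1)) ∈ ({2, 54, 66, 70} : Set ℕ) :=
    mE8_four_112 h2 hgg (zS_sq _ _ _) h7
  rw [h7] at h1
  simp only [Set.mem_insert_iff, Set.mem_singleton_iff] at h4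
  omega

theorem e8_112_of_dim (h2 : (2 : F) ≠ 0) {P N0 : Subgroup ↥(chevE8.group F)} {z s : ↥(chevE8.group F)}
    {ψ : ↥(Subgroup.normalizer (P : Set ↥(chevE8.group F))) →* Equiv.Perm (Fin 6)} (C : CB P N0 z s ψ)
    (hm : finrank F ↥(LinearMap.ker (Cfsg.Agent.H392.KKL.rho chevE8 F z + 1)) = 112) : False :=
  e8_112 h2 C (conj_of_dim h2 C.z_sq hm)

end E8

end Cfsg.Agent.H392.Co3
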