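import Mathlib

/-!
# S1920, case B, `z` classical (helper392): linear algebra

`Cfg y z j e f h V0` : the fixed space of `z` is `⟨e, f, h⟩ ⊕ V0`, `y` is trivial on `e, f, h`, `j` on `V0`.
* `finrank_jy` : `dim ker (j y + 1) = 2 + dim (ker (y + 1) ⊓ V0)`;
* `finrank_half` : `y ~ z y` : the `(-1)`-eigenspace of `y` on the `(-1)`-eigenspace of `z` is one half of it;
* `finrank_eq` : `2 (dim ker (j y + 1) + dim ker (z + 1) / 2 - 2) = ...`.
-/

set_option autoImplicit false

namespace Cfsg.Agent.H392.Co3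

open Module

variable {k : Type*} [Field k] {V : Type*} [AddCommGroup V] [Module k V]

/-- the configuration -/
structure Cfg (y z j : End k V) (e f h : V) (V0 : Submodule k V) : Prop where
  ye : y e = e
  yf : y f = f
  yh : y h = h
  je : j e = -f
  jf : j f = -e
  jh : j h = -h
  yV : ∀ v ∈ V0, y v ∈ V0
  jV : ∀ v ∈ V0, j v = v
  yy : y * y = 1
  jj : j * j = z
  yj : y * j = j * y
  dec : ∀ v, z v = v → ∃ a b c : k, ∃ v0 ∈ V0, v = a • e + b • f + c • h + v0
  ind : ∀ a b c : k, a • e + b • f + c • h ∈ V0 → a = 0 ∧ b = 0 ∧ c = 0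

variable {y z j : End k V} {e f h : V} {V0 : Submodule k V}

theorem mem_ker_add {A : End k V} {v : V} : v ∈ LinearMap.ker (A + 1) ↔ A v = -v := by
  rw [LinearMap.mem_ker, LinearMap.add_apply, End.one_apply, add_eq_zero_iff_eq_neg]

theorem mem_ker_sub {A : End k V} {v : V} : v ∈ LinearMap.ker (A - 1) ↔ A v = v := by
  rw [LinearMap.mem_ker, LinearMap.sub_apply, End.one_apply, sub_eq_zero]

theorem Cfg.inf_eq (C : Cfg y z j e f h V0) (h2 : (2 : k) ≠ 0) :
    LinearMap.ker (y + 1) ⊓ LinearMap.ker (z - 1) = LinearMap.ker (y + 1) ⊓ V0 := by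
  ext v
  rw [Submodule.mem_inf, Submodule.mem_inf, mem_ker_add, mem_ker_sub]
  constructor
  · rintro ⟨h1, h3⟩
    refine ⟨h1, ?_⟩
    obtain ⟨a, b, c, v0, hv0, rfl⟩ := C.dec v h3
    have h4 : (2 * a) • e + (2 * b) • f + (2 * c) • h ∈ V0 := by
      have h5 : (2 * a) • e + (2 * b) • f + (2 * c) • h = -(v0 + y v0) := by
        rw [map_add, map_add, map_add, map_smul, map_smul, map_smul, C.ye, C.yf, C.yh] at h1
        rw [← sub_eq_zero] at h1 ⊢
        rw [← h1]
        module
      rw [h5]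
      exact V0.neg_mem (V0.add_mem hv0 (C.yV v0 hv0))
    obtain ⟨ha, hb, hc⟩ := C.ind _ _ _ h4
    rw [(mul_eq_zero.1 ha).resolve_left h2, (mul_eq_zero.1 hb).resolve_left h2, (mul_eq_zero.1 hc).resolve_left h2]
    simpa using hv0
  · rintro ⟨h1, h3⟩
    refine ⟨h1, ?_⟩
    rw [← C.jj, End.mul_apply, C.jV v h3, C.jV v h3]

/-- **the `(-1)`-eigenspace of `j y`** -/
theorem Cfg.finrank_jy [FiniteDimensional k V] (C : Cfg y z j e f h V0) :
    finrank k ↥(LinearMap.ker (j * y + 1)) = 2 + finrank k ↥(LinearMap.ker (y + 1) ⊓ V0) := by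
  set U := LinearMap.ker (y + 1) ⊓ V0 with hU
  let Ψ : ((k × k) × ↥U) →ₗ[k] V :=
    LinearMap.coprod (LinearMap.coprod (LinearMap.toSpanSingleton k V (e + f)) (LinearMap.toSpanSingleton k V h)) U.subtype
  have hΨ : ∀ a c : k, ∀ u : ↥U, Ψ ((a, c), u) = a • (e + f) + c • h + (u : V) := fun a c u => rfl
  have hinj : Function.Injective Ψ := by
    rw [← LinearMap.ker_eq_bot, Submodule.eq_bot_iff]
    rintro ⟨⟨a, c⟩, u⟩ h1
    rw [LinearMap.mem_ker, hΨ] at h1
    have hu := (Submodule.mem_inf.1 u.2).2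
    have h3 : a • e + a • f + c • h ∈ V0 := by
      have h4 : a • e + a • f + c • h = -(u : V) := by
        rw [← sub_eq_zero, ← h1]
        module
      rw [h4]
      exact V0.neg_mem hu
    obtain ⟨ha, -, hc⟩ := C.ind _ _ _ h3
    rw [ha, hc, zero_smul, zero_smul, zero_add, zero_add] at h1
    rw [ha, hc]
    exact Prod.ext rfl (Subtype.ext h1)
  have hrange : LinearMap.range Ψ = LinearMap.ker (j * y + 1) := by
    ext v
    rw [mem_ker_add, LinearMap.mem_range]
    constructor
    · rintro ⟨⟨⟨a, c⟩, u⟩, rfl⟩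
      obtain ⟨hu1, hu2⟩ := Submodule.mem_inf.1 u.2
      rw [mem_ker_add] at hu1
      rw [hΨ, End.mul_apply]
      simp only [map_add, map_smul, map_neg, C.ye, C.yf, C.yh, hu1, C.je, C.jf, C.jh, C.jV _ hu2]
      module
    · intro h1
      have h3 : z v = v := by
        have h4 : (j * y) * (j * y) = z := by
          calc (j * y) * (j * y) = j * (y * j) * y := by simp only [mul_assoc]
            _ = (j * j) * (y * y) := by rw [C.yj]; simp only [mul_assoc]
            _ = z := by rw [C.yy, mul_one, C.jj]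
        rw [← h4, End.mul_apply, h1, map_neg, h1, neg_neg]
      obtain ⟨a, b, c, v0, hv0, rfl⟩ := C.dec v h3
      rw [End.mul_apply] at h1
      simp only [map_add, map_smul, C.ye, C.yf, C.yh, C.je, C.jf, C.jh, C.jV _ (C.yV v0 hv0)] at h1
      have h4 : (a - b) • e + (b - a) • f + (0 : k) • h = -(v0 + y v0) := by
        rw [← sub_eq_zero] at h1 ⊢
        rw [← h1]
        module
      have h5 : (a - b) • e + (b - a) • f + (0 : k) • h ∈ V0 := by
        rw [h4]
        exact V0.neg_mem (V0.add_mem hv0 (C.yV v0 hv0))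
      obtain ⟨hab, -, -⟩ := C.ind _ _ _ h5
      have hab' : b = a := (sub_eq_zero.1 hab).symm
      rw [hab', sub_self, zero_smul, zero_smul, zero_smul, add_zero, add_zero, eq_comm, neg_eq_zero,
        add_comm, add_eq_zero_iff_eq_neg] at h4
      refine ⟨((a, c), ⟨v0, Submodule.mem_inf.2 ⟨mem_ker_add.2 h4, hv0⟩⟩), ?_⟩
      rw [hΨ, hab', smul_add]
  rw [← hrange, LinearMap.finrank_range_of_inj hinj, Module.finrank_prod, Module.finrank_prod, Module.finrank_self]

/-- `y` and `z y` are conjugate by an element commuting with `z` -/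
theorem finrank_half [FiniteDimensional k V] (h2 : (2 : k) ≠ 0) (hyy : y * y = 1) (hyz : y * z = z * y)
    {n : End k V} (hn : Function.Injective n) (hnz : n * z = z * n) (hny : n * y = z * y * n) :
    2 * finrank k ↥(LinearMap.ker (y + 1) ⊓ LinearMap.ker (z + 1)) = finrank k ↥(LinearMap.ker (z + 1)) := by
  set K := LinearMap.ker (z + 1) with hK
  set A := LinearMap.ker (y + 1) ⊓ K with hA
  set B := LinearMap.ker (y - 1) ⊓ K with hB
  have hyK : ∀ v ∈ K, y v ∈ K := by
    intro v hv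
    rw [hK, mem_ker_add] at hv ⊢
    rw [← End.mul_apply, ← hyz, End.mul_apply, hv, map_neg]
  have hnK : ∀ v ∈ K, n v ∈ K := by
    intro v hv
    rw [hK, mem_ker_add] at hv ⊢
    rw [← End.mul_apply, ← hnz, End.mul_apply, hv, map_neg]
  have hyv : ∀ v, y (y v) = v := fun v => by rw [← End.mul_apply, hyy, End.one_apply]
  have hn' : ∀ v ∈ K, y (n v) = -n (y v) := by
    intro v hv
    have h1 := hyK _ (hnK v hv)
    rw [hK, mem_ker_add] at h1
    have h3 : n (y v) = z (y (n v)) := by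
      rw [← End.mul_apply, hny]; rfl
    rw [h3, h1, neg_neg]
  have hAB : finrank k ↥A = finrank k ↥B := by
    apply le_antisymm
    · have h3 : A.map n ≤ B := by
        rintro _ ⟨v, hv, rfl⟩
        obtain ⟨h4, h5⟩ := Submodule.mem_inf.1 hv
        rw [mem_ker_add] at h4
        exact Submodule.mem_inf.2 ⟨mem_ker_sub.2 (by rw [hn' v h5, h4, map_neg, neg_neg]), hnK v h5⟩
      calc finrank k ↥A = finrank k ↥(A.map n) := (Submodule.equivMapOfInjective n hn A).finrank_eq
        _ ≤ _ := Submodule.finrank_mono h3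
    · have h3 : B.map n ≤ A := by
        rintro _ ⟨v, hv, rfl⟩
        obtain ⟨h4, h5⟩ := Submodule.mem_inf.1 hv
        rw [mem_ker_sub] at h4
        exact Submodule.mem_inf.2 ⟨mem_ker_add.2 (by rw [hn' v h5, h4]), hnK v h5⟩
      calc finrank k ↥B = finrank k ↥(B.map n) := (Submodule.equivMapOfInjective n hn B).finrank_eq
        _ ≤ _ := Submodule.finrank_mono h3
  have hsup : A ⊔ B = K := by
    apply le_antisymm (sup_le inf_le_right inf_le_right)
    intro v hv
    have h3 : v = (2 : k)⁻¹ • (v - y v) + (2 : k)⁻¹ • (v + y v) := by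
      rw [← smul_add, show v - y v + (v + y v) = (2 : k) • v by module, smul_smul, inv_mul_cancel₀ h2, one_smul]
    rw [h3]
    refine Submodule.add_mem_sup (Submodule.smul_mem _ _ (Submodule.mem_inf.2 ⟨mem_ker_add.2 ?_, ?_⟩))
      (Submodule.smul_mem _ _ (Submodule.mem_inf.2 ⟨mem_ker_sub.2 ?_, ?_⟩))
    · rw [map_sub, hyv, neg_sub]
    · exact K.sub_mem hv (hyK v hv)
    · rw [map_add, hyv, add_comm]
    · exact K.add_mem hv (hyK v hv)
  have hinf : A ⊓ B = ⊥ := by
    rw [Submodule.eq_bot_iff]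
    intro v hv
    obtain ⟨h3, h4⟩ := Submodule.mem_inf.1 hv
    have h5 := mem_ker_add.1 (Submodule.mem_inf.1 h3).1
    have h6 := mem_ker_sub.1 (Submodule.mem_inf.1 h4).1
    rw [h6] at h5
    have h7 : (2 : k) • v = 0 := by
      rw [two_smul]
      nth_rewrite 1 [h5]
      rw [neg_add_cancel]
    exact (smul_eq_zero.1 h7).resolve_left h2
  have h8 := Submodule.finrank_sup_add_finrank_inf_eq A B
  rw [hsup, hinf, finrank_bot, add_zero] at h8
  omega

/-- the two eigenspaces of `z` -/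
theorem finrank_split [FiniteDimensional k V] (h2 : (2 : k) ≠ 0) (hzz : z * z = 1) (hyz : y * z = z * y) :
    finrank k ↥(LinearMap.ker (y + 1)) = finrank k ↥(LinearMap.ker (y + 1) ⊓ LinearMap.ker (z - 1)) +
      finrank k ↥(LinearMap.ker (y + 1) ⊓ LinearMap.ker (z + 1)) := by
  set L := LinearMap.ker (y + 1) with hL
  have hzL : ∀ v ∈ L, z v ∈ L := by
    intro v hv
    rw [hL, mem_ker_add] at hv ⊢
    rw [← End.mul_apply, hyz, End.mul_apply, hv, map_neg]
  have hzv : ∀ v, z (z v) = v := fun v => by rw [← End.mul_apply, hzz, End.one_apply]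
  have hsup : (L ⊓ LinearMap.ker (z - 1)) ⊔ (L ⊓ LinearMap.ker (z + 1)) = L := by
    apply le_antisymm (sup_le inf_le_left inf_le_left)
    intro v hv
    have h3 : v = (2 : k)⁻¹ • (v + z v) + (2 : k)⁻¹ • (v - z v) := by
      rw [← smul_add, show v + z v + (v - z v) = (2 : k) • v by module, smul_smul, inv_mul_cancel₀ h2, one_smul]
    rw [h3]
    refine Submodule.add_mem_sup (Submodule.smul_mem _ _ (Submodule.mem_inf.2 ⟨?_, mem_ker_sub.2 ?_⟩))
      (Submodule.smul_mem _ _ (Submodule.mem_inf.2 ⟨?_, mem_ker_add.2 ?_⟩))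
    · exact L.add_mem hv (hzL v hv)
    · rw [map_add, hzv, add_comm]
    · exact L.sub_mem hv (hzL v hv)
    · rw [map_sub, hzv, neg_sub]
  have hinf : (L ⊓ LinearMap.ker (z - 1)) ⊓ (L ⊓ LinearMap.ker (z + 1)) = ⊥ := by
    rw [Submodule.eq_bot_iff]
    intro v hv
    obtain ⟨h3, h4⟩ := Submodule.mem_inf.1 hv
    have h5 := mem_ker_sub.1 (Submodule.mem_inf.1 h3).2
    have h6 := mem_ker_add.1 (Submodule.mem_inf.1 h4).2
    rw [h5] at h6
    have h7 : (2 : k) • v = 0 := by
      rw [two_smul]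
      nth_rewrite 1 [h6]
      rw [neg_add_cancel]
    exact (smul_eq_zero.1 h7).resolve_left h2
  have h8 := Submodule.finrank_sup_add_finrank_inf_eq (L ⊓ LinearMap.ker (z - 1)) (L ⊓ LinearMap.ker (z + 1))
  rw [hsup, hinf, finrank_bot, add_zero] at h8
  exact h8

/-- **summary** -/
theorem Cfg.finrank_eq [FiniteDimensional k V] (C : Cfg y z j e f h V0) (h2 : (2 : k) ≠ 0) (hzz : z * z = 1)
    {n : End k V} (hn : Function.Injective n) (hnz : n * z = z * n) (hny : n * y = z * y * n) :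
    2 * finrank k ↥(LinearMap.ker (y + 1)) + 4 =
      2 * finrank k ↥(LinearMap.ker (j * y + 1)) + finrank k ↥(LinearMap.ker (z + 1)) := by
  have hyz : y * z = z * y := by
    rw [← C.jj, ← mul_assoc, C.yj, mul_assoc, C.yj, mul_assoc]
  have h1 := C.finrank_jy
  have h3 := finrank_half h2 C.yy hyz hn hnz hny
  have h4 := finrank_split (y := y) h2 hzz hyz
  rw [C.inf_eq h2] at h4
  omega

end Cfsg.Agent.H392.Co3
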